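import Cfsg.Agent.Lib.Helper19.HeCenMain
import Cfsg.Agent.Lib.Helper6.CenAStr

/-!
# The three involutions of 24 points and the centraliser of an involution of `M₂₄`

The three involutions `HeCen.tM i` of the 24 points, read on the points of the Golay code, lie in
`M₂₄` and commute with the involution `UA`; as they generate a group of order `21504`, this
group is isomorphic to the centraliser of `UA` in `M₂₄`, hence to the centraliser of a
transvection of `SL(5, 2)`.
-/

set_option autoImplicit false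

namespace Cfsg.Agent.Lib.Helper19.HeCenM

open Cfsg Cfsg.Agent.Lib.Helper6.Golay Cfsg.Agent.Lib.Helper6.M24 Cfsg.Agent.Lib.Helper6.Cls
  Cfsg.Agent.Lib.Helper6.M12
open Cfsg.Agent.Lib.Helper19.HeCen
open Cfsg.Agent.Lib.Helper19.Cox (L mem_L)
open Cfsg.Agent.Lib.Helper19
open Equiv

/-- the codes of the three involutions -/
def cM : ℕ → ℕ
  | 0 => 293410537255087420939982920376171122
  | 1 => 1384400308765477793893570448071155
  | 2 => 382374659417948513647320583923871219
  | _ => 0

theorem cM_mem : ∀ i : Fin 3, inM24c (cM i.val) = true := by decide +kernel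

theorem cM_act : ∀ i : Fin 3, ∀ j : Fin 24, evC (cM i.val) j.val = PM.π i.val j.val := by
  decide +kernel

theorem cM_comm : ∀ i : Fin 3, ∀ j : Fin 24,
    evC (cM i.val) (evC uA j.val) = evC uA (evC (cM i.val) j.val) := by decide +kernel

/-- the numbering of the points of the Golay code -/
def eG : Fin 24 ≃ GolayPt where
  toFun j := pt j.val
  invFun p := ⟨idx p, idx_lt p⟩
  left_inv j := Fin.ext (idx_pt j.2)
  right_inv p := pt_idx p

/-- transport of the permutations -/
def κ : Perm (Fin 24) ≃* Perm GolayPt := eG.permCongrHom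

theorem κ_pt (σ : Perm (Fin 24)) (j : Fin 24) : κ σ (pt j.val) = pt (σ j).val := by
  show eG (σ (eG.symm (pt j.val))) = pt (σ j).val
  have h : eG.symm (pt j.val) = j := eG.symm_apply_apply j
  rw [h]
  rfl

theorem tM_val (i : ℕ) (hi : i < 3) (x : Fin 24) : (tM i x).val = PM.π i x.val := by
  show PM.act i x.val = PM.π i x.val
  unfold FP.PData.act
  have h3 : i < PM.n := hi
  have h4 : x.val < PM.d := x.2
  simp only [h3, h4, if_true]

theorem κ_acts (i : ℕ) (hi : i < 3) : Acts (κ (tM i)) (fun j => PM.π i j) := by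
  intro j hj
  have h1 := κ_pt (tM i) ⟨j, hj⟩
  have h2 := tM_val i hi ⟨j, hj⟩
  rw [h2] at h1
  refine ⟨?_, h1⟩
  have h3 : (tM i ⟨j, hj⟩).val < 24 := (tM i ⟨j, hj⟩).2
  rw [h2] at h3
  exact h3

theorem κ_mem (i : ℕ) (hi : i < 3) : κ (tM i) ∈ cen UA := by
  obtain ⟨hv, hmem⟩ := inM24c_spec (cM_mem ⟨i, hi⟩)
  have ha : Acts (tabPerm (decodeTab (cM i)) hv) (evC (cM i)) := acts_code (cM i) hv
  have he : κ (tM i) = tabPerm (decodeTab (cM i)) hv :=
    Acts.eq_of (κ_acts i hi) ha (fun j hj => (cM_act ⟨i, hi⟩ ⟨j, hj⟩).symm)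
  rw [he]
  exact ⟨hmem, Acts.eq_of (ha.mul UA_acts) (UA_acts.mul ha)
    (fun j hj => cM_comm ⟨i, hi⟩ ⟨j, hj⟩)⟩

theorem LM_le : L tM 3 ≤ (cen UA).comap κ.toMonoidHom :=
  (Subgroup.closure_le _).mpr (by
    rintro g ⟨i, hi, rfl⟩
    exact κ_mem i hi)

/-- the centraliser of `UA` in `M₂₄` -/
abbrev CU : Subgroup ↥Cfsg.M24 :=
  Subgroup.centralizer ({(⟨UA, UA_mem⟩ : ↥Cfsg.M24)} : Set ↥Cfsg.M24)

/-- the homomorphism from the group generated by the three involutions to the centraliser -/
def ψ : L tM 3 →* CU where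
  toFun g := ⟨⟨κ g.1, (LM_le g.2).1⟩, by
    rw [Subgroup.mem_centralizer_iff]
    intro y hy
    rw [Set.mem_singleton_iff] at hy
    subst hy
    apply Subtype.ext
    exact (LM_le g.2).2.symm⟩
  map_one' := by
    apply Subtype.ext
    apply Subtype.ext
    exact map_one κ
  map_mul' a b := by
    apply Subtype.ext
    apply Subtype.ext
    exact map_mul κ a.1 b.1

theorem ψ_injective : Function.Injective ψ := by
  intro a b h
  have h1 : κ a.1 = κ b.1 := congrArg (fun x : CU => ((x : ↥Cfsg.M24) : Perm GolayPt)) h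
  exact Subtype.ext (κ.injective h1)

/-- The group generated by the three involutions of 24 points is isomorphic to the centraliser
of a transvection of `SL(5, 2)`. -/
theorem final (s : Matrix.SpecialLinearGroup (Fin 5) (ZMod 2))
    (hs : (s : Matrix (Fin 5) (Fin 5) (ZMod 2)) = Matrix.transvection 0 1 1) :
    Nonempty (L tM 3 ≃* ↥(Subgroup.centralizer
      ({s} : Set (Matrix.SpecialLinearGroup (Fin 5) (ZMod 2))))) := by
  obtain ⟨f⟩ := Cfsg.Agent.Lib.Helper6.CI.cenUA_iso s hs
  have hc1 : Nat.card CU ≤ 21504 := by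
    rw [Nat.card_congr f.toEquiv]
    exact Cfsg.Agent.Lib.Helper6.TC.card_centralizer_le s hs
  have hbij : Function.Bijective ψ :=
    ψ_injective.bijective_of_nat_card_le (le_trans hc1 lowerM)
  exact ⟨(MulEquiv.ofBijective ψ hbij).trans f⟩

end Cfsg.Agent.Lib.Helper19.HeCenM
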