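import Cfsg.Agent.Lib.Helper19.HeCenD
import Cfsg.Agent.Lib.Helper19.HeMain
import Cfsg.Agent.Lib.Helper19.HeIso

/-!
# The centraliser of an involution of the Held group on 2058 points

Three involutions `tN i` of the 2058 points (words in the generators of the Held group, commuting
with the fourth generator `HeG.s 3`) and three involutions `tM i` of 24 points satisfy the same
relators `relsQ`; coset-table certificates show that three involutions satisfying `relsQ` generate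
a group of order at most `21504`, and orbit certificates show that both triples generate groups
of order at least `21504`.  A count of fixed points along a base shows that the centraliser of
`HeG.s 3` has order at most `21504`, so it is generated by the `tN i`.
-/

set_option autoImplicit false

namespace Cfsg.Agent.Lib.Helper19.HeCen

open Equiv MulAction
open Cfsg.Agent.Lib.Helper19
open Cfsg.Agent.Lib.Helper19.Cox (L L_mono mem_L L_zero)
open Cfsg.Agent.Lib.Helper19.RC (allBelow allBelow_iff)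
open Cfsg.Agent.Lib.Helper19.FP (tg16)

/-! ### Two generic lemmas on permutation groups -/

/-- if the images of `b` under the elements of `D` lie in the list `l`, then the index of the
stabiliser of `b` in `D` is at most the length of `l` -/
theorem cent_step {d : ℕ} (D : Subgroup (Perm (Fin d))) (b : Fin d) (l : List ℕ)
    (h : ∀ g ∈ D, (g b).val ∈ l) :
    Nat.card D ≤ l.length *
      Nat.card (D ⊓ stabilizer (Perm (Fin d)) b : Subgroup (Perm (Fin d))) := by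
  classical
  have hex : ∀ i : Fin l.length, ∃ r : Perm (Fin d), r ∈ D ∧
      ((∃ g ∈ D, (g b).val = l[i]) → (r b).val = l[i]) := by
    intro i
    by_cases hh : ∃ g ∈ D, (g b).val = l[i]
    · obtain ⟨g, hg, e⟩ := hh
      exact ⟨g, hg, fun _ => e⟩
    · exact ⟨1, one_mem _, fun h' => absurd h' hh⟩
  choose r hrD hr using hex
  have hidx : ∀ g : D, List.idxOf ((g : Perm (Fin d)) b).val l < l.length :=
    fun g => List.idxOf_lt_length_of_mem (h g.1 g.2)
  have hval : ∀ g : D, (r ⟨_, hidx g⟩ b) = (g : Perm (Fin d)) b := by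
    intro g
    apply Fin.ext
    have e1 : l[List.idxOf ((g : Perm (Fin d)) b).val l]'(hidx g) = ((g : Perm (Fin d)) b).val :=
      List.getElem_idxOf (hidx g)
    have e2 := hr ⟨_, hidx g⟩ ⟨g.1, g.2, e1.symm⟩
    exact e2.trans e1
  let F : D → Fin l.length ×
      (D ⊓ stabilizer (Perm (Fin d)) b : Subgroup (Perm (Fin d))) := fun g =>
    (⟨List.idxOf ((g : Perm (Fin d)) b).val l, hidx g⟩, ⟨(r ⟨_, hidx g⟩)⁻¹ * g, by
      refine Subgroup.mem_inf.mpr ⟨mul_mem (inv_mem (hrD _)) g.2, ?_⟩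
      rw [mem_stabilizer_iff, Perm.smul_def, Perm.mul_apply]
      exact Perm.inv_eq_iff_eq.mpr (hval g).symm⟩)
  have hF : Function.Injective F := by
    intro g g' heq
    have h1 : (⟨List.idxOf ((g : Perm (Fin d)) b).val l, hidx g⟩ : Fin l.length) =
        ⟨List.idxOf ((g' : Perm (Fin d)) b).val l, hidx g'⟩ := congrArg Prod.fst heq
    have h2 : (r ⟨_, hidx g⟩)⁻¹ * (g : Perm (Fin d)) = (r ⟨_, hidx g'⟩)⁻¹ * (g' : Perm (Fin d)) :=
      congrArg (fun p => (p.2 : Perm (Fin d))) heq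
    rw [h1] at h2
    exact Subtype.ext (mul_left_cancel h2)
  have := Nat.card_le_card_of_injective F hF
  rwa [Nat.card_prod, Nat.card_fin] at this

/-- if an orbit certificate is sharp, every image of `ω` is one of the points of the certificate -/
theorem orbit_sub {d : ℕ} (K : Subgroup (Perm (Fin d))) (ω : Fin d) (m : ℕ) (O : ℕ → ℕ)
    (hinj : ∀ c < m, ∀ c' < m, O c = O c' → c = c')
    (hreach : ∀ c < m, ∃ g ∈ K, (g ω).val = O c)
    (hcard : Nat.card K ≤
      m * Nat.card (K ⊓ stabilizer (Perm (Fin d)) ω : Subgroup (Perm (Fin d)))) :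
    ∀ g ∈ K, ∃ c < m, (g ω).val = O c := by
  intro g hg
  by_contra hcon
  have hne : ∀ c < m, O c ≠ (g ω).val := fun c hc e => hcon ⟨c, hc, e.symm⟩
  let O' : ℕ → ℕ := fun c => if c < m then O c else (g ω).val
  have hO'1 : ∀ c, c < m → O' c = O c := fun c hc => if_pos hc
  have hO'2 : O' m = (g ω).val := if_neg (lt_irrefl m)
  have hinj' : ∀ c < m + 1, ∀ c' < m + 1, O' c = O' c' → c = c' := by
    intro c hc c' hc' e
    rcases Nat.lt_succ_iff_lt_or_eq.mp hc with h1 | h1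
    · rcases Nat.lt_succ_iff_lt_or_eq.mp hc' with h2 | h2
      · rw [hO'1 c h1, hO'1 c' h2] at e
        exact hinj c h1 c' h2 e
      · rw [h2, hO'1 c h1, hO'2] at e
        exact absurd e (hne c h1)
    · rcases Nat.lt_succ_iff_lt_or_eq.mp hc' with h2 | h2
      · rw [h1, hO'1 c' h2, hO'2] at e
        exact absurd e.symm (hne c' h2)
      · rw [h1, h2]
  have hreach' : ∀ c < m + 1, ∃ g ∈ K, (g ω).val = O' c := by
    intro c hc
    rcases Nat.lt_succ_iff_lt_or_eq.mp hc with h1 | h1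
    · obtain ⟨g', hg', e⟩ := hreach c h1
      exact ⟨g', hg', e.trans (hO'1 c h1).symm⟩
    · exact ⟨g, hg, by rw [h1, hO'2]⟩
  have hlow := FP.orbit_lower K ω (m + 1) O' hinj' hreach'
  have hpos : 0 < Nat.card (K ⊓ stabilizer (Perm (Fin d)) ω : Subgroup (Perm (Fin d))) :=
    Nat.card_pos
  have : (m + 1) * Nat.card (K ⊓ stabilizer (Perm (Fin d)) ω : Subgroup (Perm (Fin d))) =
      m * Nat.card (K ⊓ stabilizer (Perm (Fin d)) ω : Subgroup (Perm (Fin d))) +
      Nat.card (K ⊓ stabilizer (Perm (Fin d)) ω : Subgroup (Perm (Fin d))) := by ring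
  omega

theorem mem_of_check (f : ℕ → ℕ) (l : List ℕ) (v : ℕ)
    (h : (!(Nat.beq (f v) v) || l.contains v) = true) (e : f v = v) : v ∈ l := by
  rw [e, Nat.beq_refl] at h
  simpa using h

/-! ### The two triples of involutions -/

/-- the three involutions of the 24 points -/
def tM (i : ℕ) : Perm (Fin 24) := PM.perm PM_ok i

/-- the three involutions of the 2058 points -/
def tN (i : ℕ) : Perm (Fin 2058) := PN.perm PN_ok i

theorem htM : ∀ i, tM i * tM i = 1 := PM.perm_mul_self PM_ok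

theorem htN : ∀ i, tN i * tN i = 1 := PN.perm_mul_self PN_ok

theorem relM : ∀ w ∈ relsQ, (w.map tM).prod = 1 := PM.rel_eq_one PM_ok relsQ relsM_ok

theorem relN : ∀ w ∈ relsQ, (w.map tN).prod = 1 := PN.rel_eq_one PN_ok relsQ relsN_ok

/-- Three involutions satisfying the relators `relsQ` generate a group of order at most
`21504`. -/
theorem upper {G : Type*} [Group G] (t : ℕ → G) (ht : ∀ i, t i * t i = 1)
    (hr : ∀ w ∈ relsQ, (w.map t).prod = 1) : Finite (L t 3) ∧ Nat.card (L t 3) ≤ 21504 := by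
  have hrel : ∀ r, ((relsQ.getD r []).map t).prod = 1 := by
    intro r
    by_cases hlt : r < relsQ.length
    · rw [List.getD_eq_getElem _ _ hlt]
      exact hr _ (List.getElem_mem hlt)
    · rw [List.getD_eq_default _ _ (Nat.le_of_not_lt hlt)]
      simp
  have : Finite (L t 0) := by rw [L_zero]; infer_instance
  have h0 : Nat.card (L t 0) = 1 := by rw [L_zero]; exact Subgroup.card_bot
  obtain ⟨f1, h1⟩ : Finite (L t 1) ∧ Nat.card (L t 1) ≤ C1.N * Nat.card (L t 0) :=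
    RC.step_upper t C1 0 rfl C1_check ht hrel
  have := f1
  obtain ⟨f2, h2⟩ : Finite (L t 2) ∧ Nat.card (L t 2) ≤ C2.N * Nat.card (L t 1) :=
    RC.step_upper t C2 1 rfl C2_check ht hrel
  have := f2
  obtain ⟨f3, h3⟩ : Finite (L t 3) ∧ Nat.card (L t 3) ≤ C3.N * Nat.card (L t 2) :=
    RC.step_upper t C3 2 rfl C3_check ht hrel
  have e1 : C1.N = 2 := rfl
  have e2 : C2.N = 4 := rfl
  have e3 : C3.N = 2688 := rfl
  rw [e1, h0] at h1
  rw [e2] at h2
  rw [e3] at h3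
  exact ⟨f3, by omega⟩

/-- Two triples of involutions satisfying `relsQ` and generating groups of order at least
`21504` generate isomorphic groups. -/
theorem iso_of_models {G₁ G₂ : Type*} [Group G₁] [Group G₂] (t₁ : ℕ → G₁) (t₂ : ℕ → G₂)
    (h₁ : ∀ i, t₁ i * t₁ i = 1) (h₂ : ∀ i, t₂ i * t₂ i = 1)
    (r₁ : ∀ w ∈ relsQ, (w.map t₁).prod = 1) (r₂ : ∀ w ∈ relsQ, (w.map t₂).prod = 1)
    (c₁ : 21504 ≤ Nat.card (L t₁ 3)) (c₂ : 21504 ≤ Nat.card (L t₂ 3)) :
    Nonempty (L t₁ 3 ≃* L t₂ 3) := by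
  let t : ℕ → G₁ × G₂ := fun i => (t₁ i, t₂ i)
  have ht : ∀ i, t i * t i = 1 := fun i => Prod.ext (h₁ i) (h₂ i)
  have hprod : ∀ w : List ℕ, (w.map t).prod = ((w.map t₁).prod, (w.map t₂).prod) := by
    intro w
    induction w with
    | nil => rfl
    | cons a l ih =>
      rw [List.map_cons, List.prod_cons, ih]
      rfl
  have hr : ∀ w ∈ relsQ, (w.map t).prod = 1 := fun w hw => by
    rw [hprod, r₁ w hw, r₂ w hw]
    rfl
  obtain ⟨hfin, hle⟩ := upper t ht hr
  have := hfin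
  have m1 : (L t 3).map (MonoidHom.fst G₁ G₂) = L t₁ 3 := by
    unfold L
    rw [MonoidHom.map_closure]
    congr 1
    ext y
    constructor
    · rintro ⟨_, ⟨i, hi, rfl⟩, rfl⟩
      exact ⟨i, hi, rfl⟩
    · rintro ⟨i, hi, rfl⟩
      exact ⟨t i, ⟨i, hi, rfl⟩, rfl⟩
  have m2 : (L t 3).map (MonoidHom.snd G₁ G₂) = L t₂ 3 := by
    unfold L
    rw [MonoidHom.map_closure]
    congr 1
    ext y
    constructor
    · rintro ⟨_, ⟨i, hi, rfl⟩, rfl⟩
      exact ⟨i, hi, rfl⟩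
    · rintro ⟨i, hi, rfl⟩
      exact ⟨t i, ⟨i, hi, rfl⟩, rfl⟩
  have b1 : Function.Bijective ((MonoidHom.fst G₁ G₂).subgroupMap (L t 3)) :=
    ((MonoidHom.fst G₁ G₂).subgroupMap_surjective (L t 3)).bijective_of_nat_card_le
      (by rw [m1]; omega)
  have b2 : Function.Bijective ((MonoidHom.snd G₁ G₂).subgroupMap (L t 3)) :=
    ((MonoidHom.snd G₁ G₂).subgroupMap_surjective (L t 3)).bijective_of_nat_card_le
      (by rw [m2]; omega)
  let E1 : L t 3 ≃* (L t 3).map (MonoidHom.fst G₁ G₂) := MulEquiv.ofBijective _ b1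
  let E2 : L t 3 ≃* (L t 3).map (MonoidHom.snd G₁ G₂) := MulEquiv.ofBijective _ b2
  exact ⟨(MulEquiv.subgroupCongr m1).symm.trans
    (E1.symm.trans (E2.trans (MulEquiv.subgroupCongr m2)))⟩

/-! ### The lower bounds -/

/-- a point of `Fin 24` -/
def ptM (x : ℕ) (h : x < 24 := by norm_num) : Fin 24 := ⟨x, h⟩

/-- a point of `Fin 2058` -/
def ptN (x : ℕ) (h : x < 2058 := by norm_num) : Fin 2058 := ⟨x, h⟩

theorem genM_mem (k : ℕ) : ∀ j < k, (([j] : List ℕ).map tM).prod ∈ L tM k := by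
  intro j hj
  simp only [List.map_cons, List.map_nil, List.prod_cons, List.prod_nil, mul_one]
  exact mem_L tM hj

theorem genN_mem (k : ℕ) : ∀ j < k, (([j] : List ℕ).map tN).prod ∈ L tN k := by
  intro j hj
  simp only [List.map_cons, List.map_nil, List.prod_cons, List.prod_nil, mul_one]
  exact mem_L tN hj

/-- stabiliser chain on the 24 points -/
def KM1 : Subgroup (Perm (Fin 24)) := L tM 3 ⊓ stabilizer (Perm (Fin 24)) (ptM 0)
/-- stabiliser chain on the 24 points -/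
def KM2 : Subgroup (Perm (Fin 24)) := KM1 ⊓ stabilizer (Perm (Fin 24)) (ptM 3)
/-- stabiliser chain on the 24 points -/
def KM3 : Subgroup (Perm (Fin 24)) := KM2 ⊓ stabilizer (Perm (Fin 24)) (ptM 1)

theorem wokM {w : List ℕ} (h : PM.wok w = true) : ∀ i ∈ w, i < 3 := (PM.wok_iff w).mp h

theorem wokN {w : List ℕ} (h : PN.wok w = true) : ∀ i ∈ w, i < 3 := (PN.wok_iff w).mp h

theorem lowM0 : 8 * Nat.card KM1 ≤ Nat.card (L tM 3) :=
  FP.orbit_lower (L tM 3) (ptM 0) 8 (fun c => tg16 tOM0 c)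
    (PM.orb_inj _ _ _ _ _ _ _ _ orbM0)
    (PM.orb_reach PM_ok _ _ _ _ _ _ _ _ orbM0 (L tM 3) (genM_mem 3) (ptM 0) rfl)

theorem kM1_mem : ∀ j, ((wM1.getD j []).map tM).prod ∈ KM1 := by
  intro j
  have hk := wM1_ok
  simp only [List.all_eq_true, Bool.and_eq_true, Nat.beq_eq] at hk
  by_cases hlt : j < wM1.length
  · rw [List.getD_eq_getElem _ _ hlt]
    obtain ⟨h1, h2⟩ := hk _ (List.getElem_mem hlt)
    exact Subgroup.mem_inf.mpr ⟨PM.prod_mem_L PM_ok _ 3 (wokM h1),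
      PM.prod_mem_stab PM_ok _ h1 (ptM 0) h2⟩
  · rw [List.getD_eq_default _ _ (Nat.le_of_not_lt hlt)]
    simp only [List.map_nil, List.prod_nil]
    exact one_mem _

theorem lowM1 : 16 * Nat.card KM2 ≤ Nat.card KM1 :=
  FP.orbit_lower KM1 (ptM 3) 16 (fun c => tg16 tOM1 c)
    (PM.orb_inj _ _ _ _ _ _ _ _ orbM1)
    (PM.orb_reach PM_ok _ _ _ _ _ _ _ _ orbM1 KM1 (fun j _ => kM1_mem j) (ptM 3) rfl)

theorem kM2_mem : ∀ j, ((wM2.getD j []).map tM).prod ∈ KM2 := by
  intro j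
  have hk := wM2_ok
  simp only [List.all_eq_true, Bool.and_eq_true, Nat.beq_eq] at hk
  by_cases hlt : j < wM2.length
  · rw [List.getD_eq_getElem _ _ hlt]
    obtain ⟨⟨h1, h2⟩, h3⟩ := hk _ (List.getElem_mem hlt)
    exact Subgroup.mem_inf.mpr ⟨Subgroup.mem_inf.mpr ⟨PM.prod_mem_L PM_ok _ 3 (wokM h1),
      PM.prod_mem_stab PM_ok _ h1 (ptM 0) h2⟩, PM.prod_mem_stab PM_ok _ h1 (ptM 3) h3⟩
  · rw [List.getD_eq_default _ _ (Nat.le_of_not_lt hlt)]
    simp only [List.map_nil, List.prod_nil]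
    exact one_mem _

theorem lowM2 : 14 * Nat.card KM3 ≤ Nat.card KM2 :=
  FP.orbit_lower KM2 (ptM 1) 14 (fun c => tg16 tOM2 c)
    (PM.orb_inj _ _ _ _ _ _ _ _ orbM2)
    (PM.orb_reach PM_ok _ _ _ _ _ _ _ _ orbM2 KM2 (fun j _ => kM2_mem j) (ptM 1) rfl)

theorem kM3_mem : ∀ j, ((wM3.getD j []).map tM).prod ∈ KM3 := by
  intro j
  have hk := wM3_ok
  simp only [List.all_eq_true, Bool.and_eq_true, Nat.beq_eq] at hk
  by_cases hlt : j < wM3.length
  · rw [List.getD_eq_getElem _ _ hlt]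
    obtain ⟨⟨⟨h1, h2⟩, h3⟩, h4⟩ := hk _ (List.getElem_mem hlt)
    exact Subgroup.mem_inf.mpr ⟨Subgroup.mem_inf.mpr ⟨Subgroup.mem_inf.mpr
      ⟨PM.prod_mem_L PM_ok _ 3 (wokM h1), PM.prod_mem_stab PM_ok _ h1 (ptM 0) h2⟩,
      PM.prod_mem_stab PM_ok _ h1 (ptM 3) h3⟩, PM.prod_mem_stab PM_ok _ h1 (ptM 1) h4⟩
  · rw [List.getD_eq_default _ _ (Nat.le_of_not_lt hlt)]
    simp only [List.map_nil, List.prod_nil]
    exact one_mem _

theorem lowM3 : 12 ≤ Nat.card KM3 := by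
  have h := FP.orbit_lower KM3 (ptM 5) 12 (fun c => tg16 tOM3 c)
    (PM.orb_inj _ _ _ _ _ _ _ _ orbM3)
    (PM.orb_reach PM_ok _ _ _ _ _ _ _ _ orbM3 KM3 (fun j _ => kM3_mem j) (ptM 5) rfl)
  have hpos : 0 < Nat.card
      (KM3 ⊓ stabilizer (Perm (Fin 24)) (ptM 5) : Subgroup (Perm (Fin 24))) := Nat.card_pos
  calc 12 = 12 * 1 := rfl
    _ ≤ 12 * Nat.card
      (KM3 ⊓ stabilizer (Perm (Fin 24)) (ptM 5) : Subgroup (Perm (Fin 24))) :=
      Nat.mul_le_mul_left _ hpos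
    _ ≤ Nat.card KM3 := h

theorem lowerM : 21504 ≤ Nat.card (L tM 3) := by
  have h0 := lowM0
  have h1 := lowM1
  have h2 := lowM2
  have h3 := lowM3
  omega

/-- stabiliser chain on the 2058 points -/
def KN1 : Subgroup (Perm (Fin 2058)) := L tN 3 ⊓ stabilizer (Perm (Fin 2058)) (ptN 12)

theorem lowN0 : 1344 * Nat.card KN1 ≤ Nat.card (L tN 3) :=
  FP.orbit_lower (L tN 3) (ptN 12) 1344 (fun c => tg16 tON0 c)
    (PN.orb_inj _ _ _ _ _ _ _ _ orbN0)
    (PN.orb_reach PN_ok _ _ _ _ _ _ _ _ orbN0 (L tN 3) (genN_mem 3) (ptN 12) rfl)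

theorem kN1_mem : ∀ j, ((wN1.getD j []).map tN).prod ∈ KN1 := by
  intro j
  have hk := wN1_ok
  simp only [List.all_eq_true, Bool.and_eq_true, Nat.beq_eq] at hk
  by_cases hlt : j < wN1.length
  · rw [List.getD_eq_getElem _ _ hlt]
    obtain ⟨h1, h2⟩ := hk _ (List.getElem_mem hlt)
    exact Subgroup.mem_inf.mpr ⟨PN.prod_mem_L PN_ok _ 3 (wokN h1),
      PN.prod_mem_stab PN_ok _ h1 (ptN 12) h2⟩
  · rw [List.getD_eq_default _ _ (Nat.le_of_not_lt hlt)]
    simp only [List.map_nil, List.prod_nil]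
    exact one_mem _

theorem lowN1 : 16 ≤ Nat.card KN1 := by
  have h := FP.orbit_lower KN1 (ptN 18) 16 (fun c => tg16 tON1 c)
    (PN.orb_inj _ _ _ _ _ _ _ _ orbN1)
    (PN.orb_reach PN_ok _ _ _ _ _ _ _ _ orbN1 KN1 (fun j _ => kN1_mem j) (ptN 18) rfl)
  have hpos : 0 < Nat.card
      (KN1 ⊓ stabilizer (Perm (Fin 2058)) (ptN 18) : Subgroup (Perm (Fin 2058))) := Nat.card_pos
  calc 16 = 16 * 1 := rfl
    _ ≤ 16 * Nat.card
      (KN1 ⊓ stabilizer (Perm (Fin 2058)) (ptN 18) : Subgroup (Perm (Fin 2058))) :=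
      Nat.mul_le_mul_left _ hpos
    _ ≤ Nat.card KN1 := h

theorem lowerN : 21504 ≤ Nat.card (L tN 3) := by
  have h0 := lowN0
  have h1 := lowN1
  omega

/-- The three involutions of the 2058 points generate a group of order `21504`. -/
theorem card_N : Nat.card (L tN 3) = 21504 :=
  le_antisymm (upper tN htN relN).2 lowerN

/-- The three involutions of the 24 points generate a group of order `21504`. -/
theorem card_M : Nat.card (L tM 3) = 21504 :=
  le_antisymm (upper tM htM relM).2 lowerM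

/-- The two groups are isomorphic. -/
theorem iso_NM : Nonempty (L tN 3 ≃* L tM 3) :=
  iso_of_models tN tM htN htM relN relM lowerN lowerM

/-! ### The stabiliser chain of the Held group along the points 0, 1, 46 -/

/-- the stabiliser of the points 0, 1 and 46 in the Held group -/
def KA : Subgroup (Perm (Fin HeG.P.d)) :=
  HeG.K2 ⊓ stabilizer (Perm (Fin HeG.P.d)) (HeG.pt 46)

theorem lowA : 90 * Nat.card KA ≤ Nat.card HeG.K2 :=
  FP.orbit_lower HeG.K2 (HeG.pt 46) 90 (fun c => tg16 tOA c)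
    (HeG.P.orb_inj _ _ _ _ _ _ _ _ orbA)
    (HeG.P.orb_reach HeG.P_ok _ _ _ _ _ _ _ _ orbA HeG.K2 HeG.k2_mem (HeG.pt 46) rfl)

theorem kA_mem : ∀ j, ((wB.getD j []).map HeG.s).prod ∈ KA := by
  intro j
  have hk := wB_ok
  simp only [List.all_eq_true, Bool.and_eq_true, Nat.beq_eq] at hk
  by_cases hlt : j < wB.length
  · rw [List.getD_eq_getElem _ _ hlt]
    obtain ⟨⟨⟨h1, h2⟩, h3⟩, h4⟩ := hk _ (List.getElem_mem hlt)
    exact Subgroup.mem_inf.mpr ⟨Subgroup.mem_inf.mpr ⟨Subgroup.mem_inf.mpr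
      ⟨HeG.P.prod_mem_L HeG.P_ok _ 7 (HeG.wok_lt h1), HeG.P.prod_mem_stab HeG.P_ok _ h1 (HeG.pt 0) h2⟩,
      HeG.P.prod_mem_stab HeG.P_ok _ h1 (HeG.pt 1) h3⟩, HeG.P.prod_mem_stab HeG.P_ok _ h1 (HeG.pt 46) h4⟩
  · rw [List.getD_eq_default _ _ (Nat.le_of_not_lt hlt)]
    simp only [List.map_nil, List.prod_nil]
    exact one_mem _

theorem lowB : 16 ≤ Nat.card KA := by
  have h := FP.orbit_lower KA (HeG.pt 23) 16 (fun c => tg16 tOB c)
    (HeG.P.orb_inj _ _ _ _ _ _ _ _ orbB)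
    (HeG.P.orb_reach HeG.P_ok _ _ _ _ _ _ _ _ orbB KA (fun j _ => kA_mem j) (HeG.pt 23) rfl)
  have hpos : 0 < Nat.card
      (KA ⊓ stabilizer (Perm (Fin HeG.P.d)) (HeG.pt 23) : Subgroup (Perm (Fin HeG.P.d))) :=
    Nat.card_pos
  calc 16 = 16 * 1 := rfl
    _ ≤ 16 * Nat.card
      (KA ⊓ stabilizer (Perm (Fin HeG.P.d)) (HeG.pt 23) : Subgroup (Perm (Fin HeG.P.d))) :=
      Nat.mul_le_mul_left _ hpos
    _ ≤ Nat.card KA := h

theorem cards : Nat.card HeG.K1 = 1958400 ∧ Nat.card HeG.K2 = 1440 ∧ Nat.card KA = 16 := by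
  have h0 := HeIso.card_G
  have h7 := HeG.low7
  have h1 := HeG.low1
  have hA := lowA
  have hB := lowB
  omega

theorem subA1 : ∀ g ∈ HeG.K1, ∃ c < 1360, (g (HeG.pt 1)).val = tg16 HeG.tOS1 c :=
  orbit_sub HeG.K1 (HeG.pt 1) 1360 (fun c => tg16 HeG.tOS1 c)
    (HeG.P.orb_inj _ _ _ _ _ _ _ _ HeG.orbS1)
    (HeG.P.orb_reach HeG.P_ok _ _ _ _ _ _ _ _ HeG.orbS1 HeG.K1 HeG.k1_mem (HeG.pt 1) rfl)
    (by
      show Nat.card HeG.K1 ≤ 1360 * Nat.card HeG.K2
      rw [cards.1, cards.2.1])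

theorem subA2 : ∀ g ∈ HeG.K2, ∃ c < 90, (g (HeG.pt 46)).val = tg16 tOA c :=
  orbit_sub HeG.K2 (HeG.pt 46) 90 (fun c => tg16 tOA c)
    (HeG.P.orb_inj _ _ _ _ _ _ _ _ orbA)
    (HeG.P.orb_reach HeG.P_ok _ _ _ _ _ _ _ _ orbA HeG.K2 HeG.k2_mem (HeG.pt 46) rfl)
    (by
      show Nat.card HeG.K2 ≤ 90 * Nat.card KA
      rw [cards.2.1, cards.2.2])

/-! ### The centraliser of the fourth generator -/

/-- the fourth generator of the Held group -/
def zG : Perm (Fin 2058) := HeG.s 3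

/-- the centraliser of `zG` in the Held group -/
def D0 : Subgroup (Perm (Fin 2058)) := L HeG.s 7 ⊓ Subgroup.centralizer {zG}

/-- stabiliser chain of the centraliser -/
def D1 : Subgroup (Perm (Fin 2058)) := D0 ⊓ stabilizer (Perm (Fin 2058)) (ptN 0)
/-- stabiliser chain of the centraliser -/
def D2 : Subgroup (Perm (Fin 2058)) := D1 ⊓ stabilizer (Perm (Fin 2058)) (ptN 1)
/-- stabiliser chain of the centraliser -/
def D3 : Subgroup (Perm (Fin 2058)) := D2 ⊓ stabilizer (Perm (Fin 2058)) (ptN 46)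

theorem zG_val (x : Fin 2058) : (zG x).val = HeG.P.π 3 x.val := by
  show HeG.P.act 3 x.val = HeG.P.π 3 x.val
  unfold FP.PData.act
  have h3 : 3 < HeG.P.n := by decide
  have h4 : x.val < HeG.P.d := x.2
  simp only [h3, h4, if_true]

theorem zfix : zG (ptN 0) = ptN 0 ∧ zG (ptN 1) = ptN 1 ∧ zG (ptN 46) = ptN 46 := by
  have h : HeG.P.π 3 0 = 0 ∧ HeG.P.π 3 1 = 1 ∧ HeG.P.π 3 46 = 46 := by decide +kernel
  exact ⟨Fin.ext ((zG_val _).trans h.1), Fin.ext ((zG_val _).trans h.2.1),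
    Fin.ext ((zG_val _).trans h.2.2)⟩

theorem comm_fix {g : Perm (Fin 2058)} (hg : g ∈ Subgroup.centralizer {zG})
    {x : Fin 2058} (hx : zG x = x) : HeG.P.π 3 (g x).val = (g x).val := by
  have h := Subgroup.mem_centralizer_iff.mp hg zG rfl
  have h2 : zG (g x) = g (zG x) := by
    rw [← Perm.mul_apply, ← Perm.mul_apply, h]
  rw [hx] at h2
  rw [← zG_val, h2]

theorem D0_step : ∀ g ∈ D0, (g (ptN 0)).val ∈ l1 := by
  intro g hg
  have hc := comm_fix (Subgroup.mem_inf.mp hg).2 zfix.1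
  exact mem_of_check _ _ _ ((allBelow_iff _ _).mp l1_ok _ (g (ptN 0)).2) hc

theorem D1_le : D1 ≤ HeG.K1 := fun g hg =>
  Subgroup.mem_inf.mpr ⟨(Subgroup.mem_inf.mp (Subgroup.mem_inf.mp hg).1).1,
    (Subgroup.mem_inf.mp hg).2⟩

theorem D2_le : D2 ≤ HeG.K2 := fun g hg =>
  Subgroup.mem_inf.mpr ⟨D1_le (Subgroup.mem_inf.mp hg).1, (Subgroup.mem_inf.mp hg).2⟩

theorem D3_le : D3 ≤ KA := fun g hg =>
  Subgroup.mem_inf.mpr ⟨D2_le (Subgroup.mem_inf.mp hg).1, (Subgroup.mem_inf.mp hg).2⟩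

theorem D1_step : ∀ g ∈ D1, (g (ptN 1)).val ∈ l2 := by
  intro g hg
  have hc := comm_fix (Subgroup.mem_inf.mp (Subgroup.mem_inf.mp hg).1).2 zfix.2.1
  obtain ⟨c, hc1, hc2⟩ := subA1 g (D1_le hg)
  have hc' : HeG.P.π 3 (tg16 HeG.tOS1 c) = tg16 HeG.tOS1 c :=
    (congrArg (HeG.P.π 3) hc2).symm.trans (hc.trans hc2)
  have hm := mem_of_check _ _ _ ((allBelow_iff _ _).mp l2_ok c hc1) hc'
  exact (congrArg (fun v => v ∈ l2) hc2).mpr hm

theorem D2_step : ∀ g ∈ D2, (g (ptN 46)).val ∈ l3 := by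
  intro g hg
  have hc := comm_fix
    (Subgroup.mem_inf.mp (Subgroup.mem_inf.mp (Subgroup.mem_inf.mp hg).1).1).2 zfix.2.2
  obtain ⟨c, hc1, hc2⟩ := subA2 g (D2_le hg)
  have hc' : HeG.P.π 3 (tg16 tOA c) = tg16 tOA c :=
    (congrArg (HeG.P.π 3) hc2).symm.trans (hc.trans hc2)
  have hm := mem_of_check _ _ _ ((allBelow_iff _ _).mp l3_ok c hc1) hc'
  exact (congrArg (fun v => v ∈ l3) hc2).mpr hm

/-- The centraliser of `zG` in the Held group has order at most `21504`. -/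
theorem card_D0_le : Nat.card D0 ≤ 21504 := by
  have h0 : Nat.card D0 ≤ l1.length * Nat.card D1 := cent_step D0 (ptN 0) l1 D0_step
  have h1 : Nat.card D1 ≤ l2.length * Nat.card D2 := cent_step D1 (ptN 1) l2 D1_step
  have h2 : Nat.card D2 ≤ l3.length * Nat.card D3 := cent_step D2 (ptN 46) l3 D2_step
  have h3 : Nat.card D3 ≤ Nat.card KA := Subgroup.card_le_of_le D3_le
  have e1 : l1.length = 42 := rfl
  have e2 : l2.length = 16 := rfl
  have e3 : l3.length = 2 := rfl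
  rw [e1] at h0
  rw [e2] at h1
  rw [e3] at h2
  rw [cards.2.2] at h3
  omega

/-! ### The link between the three involutions and the centraliser -/

theorem tN_val (i : ℕ) (hi : i < 3) (x : Fin 2058) : (tN i x).val = PN.π i x.val := by
  show PN.act i x.val = PN.π i x.val
  unfold FP.PData.act
  have h3 : i < PN.n := hi
  have h4 : x.val < PN.d := x.2
  simp only [h3, h4, if_true]

theorem tN_eq (i : ℕ) (hi : i < 3) : tN i = ((nw.getD i []).map HeG.s).prod := by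
  have h := (allBelow_iff _ _).mp nw_ok i hi
  simp only [Bool.and_eq_true, allBelow_iff, Nat.beq_eq] at h
  obtain ⟨h1, h2⟩ := h
  apply Equiv.ext
  intro x
  apply Fin.ext
  have e1 : ((((nw.getD i []).map HeG.s).prod : Perm (Fin 2058)) x).val =
      HeG.P.app (nw.getD i []) x.val := HeG.P.prod_val HeG.P_ok _ h1 x
  exact (tN_val i hi x).trans ((h2 x.val x.2).symm.trans e1.symm)

theorem tN_mem (i : ℕ) (hi : i < 3) : tN i ∈ D0 := by
  have h := (allBelow_iff _ _).mp nw_ok i hi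
  simp only [Bool.and_eq_true, allBelow_iff, Nat.beq_eq] at h
  have hmem : ((nw.getD i []).map HeG.s).prod ∈ L HeG.s 7 :=
    HeG.P.prod_mem_L HeG.P_ok _ 7 (HeG.wok_lt h.1)
  have hmem' : tN i ∈ L HeG.s 7 := (congrArg (fun g => g ∈ L HeG.s 7) (tN_eq i hi)).mpr hmem
  refine Subgroup.mem_inf.mpr ⟨hmem', ?_⟩
  rw [Subgroup.mem_centralizer_iff]
  intro y hy
  rw [Set.mem_singleton_iff] at hy
  subst hy
  have hc := (allBelow_iff _ _).mp comm_ok i hi
  simp only [allBelow_iff, Nat.beq_eq] at hc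
  apply Equiv.ext
  intro x
  apply Fin.ext
  have hx : x.val < 2058 := x.2
  show (zG (tN i x)).val = (tN i (zG x)).val
  rw [zG_val, tN_val i hi, tN_val i hi, zG_val]
  exact (hc x.val hx).symm

/-- The three involutions lie in the centraliser. -/
theorem LN_le : L tN 3 ≤ D0 :=
  (Subgroup.closure_le D0).mpr (by
    rintro g ⟨i, hi, rfl⟩
    exact tN_mem i hi)

/-- The three involutions generate the centraliser of `zG` in the Held group. -/
theorem LN_eq : L tN 3 = D0 :=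
  Subgroup.eq_of_le_of_card_ge LN_le (by rw [card_N]; exact card_D0_le)

theorem zG_ne_one : zG ≠ 1 := by
  intro h
  have h1 : (zG (ptN 2)).val = 2 := by rw [h]; rfl
  rw [zG_val] at h1
  have h2 : HeG.P.π 3 2 ≠ 2 := by decide +kernel
  exact h2 h1

end Cfsg.Agent.Lib.Helper19.HeCen
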