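import Cfsg.Agent.Lib.Helper19.HeCenMain
import Cfsg.Agent.Lib.Helper19.HeIso
import Cfsg.Agent.Lib.Helper56.TCCox

/-!
# The centraliser of an involution of the presented Held group

The centraliser of the fourth generator `d` of the presented Held group is generated by three
involutions, and is isomorphic to the group generated by the three involutions `HeCen.tM i` of
24 points.
-/

set_option autoImplicit false

namespace Cfsg.Agent.Lib.Helper19.HeCenP

open Cfsg.Spor
open Cfsg.Agent.Lib.Helper56.TC (ew ew_cons ew_nil ew_append ew_rep)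
open Cfsg.Agent.Lib.Helper19.Cox (L mem_L)
open Cfsg.Agent.Lib.Helper19.HePres
open Cfsg.Agent.Lib.Helper19.HeCen
open Cfsg.Agent.Lib.Helper19.RC (allBelow allBelow_iff)
open Cfsg.Agent.Lib.Helper19
open Equiv

/-- the three involutions, in the presented group -/
noncomputable def nP (i : ℕ) : PresentedGroup R := ew gP (nw.getD i [])

/-- the evaluation homomorphism, with values in the permutations of `Fin 2058` -/
noncomputable def φ' : PresentedGroup R →* Perm (Fin 2058) := φ

theorem φ'_injective : Function.Injective φ' := HeIso.φ_injective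

theorem φ'_nP (i : ℕ) (hi : i < 3) : φ' (nP i) = tN i := by
  have h := (allBelow_iff _ _).mp nw_ok i hi
  simp only [Bool.and_eq_true, allBelow_iff, Nat.beq_eq] at h
  have h1 : φ (ew gP (nw.getD i [])) = ((nw.getD i []).map HeG.s).prod :=
    φ_ew _ (HeG.wok_lt h.1)
  exact h1.trans (tN_eq i hi).symm

theorem map_LnP : (L nP 3).map φ' = L tN 3 := by
  unfold L
  rw [MonoidHom.map_closure]
  congr 1
  ext y
  constructor
  · rintro ⟨_, ⟨i, hi, rfl⟩, rfl⟩
    exact ⟨i, hi, (φ'_nP i hi).symm⟩
  · rintro ⟨i, hi, rfl⟩
    exact ⟨nP i, ⟨i, hi, rfl⟩, φ'_nP i hi⟩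

/-- the subgroup generated by the three involutions is isomorphic to the subgroup of the
permutations of the 2058 points that their images generate -/
noncomputable def eL : L nP 3 ≃* L tN 3 :=
  ((L nP 3).equivMapOfInjective φ' φ'_injective).trans (MulEquiv.subgroupCongr map_LnP)

/-- the involution: the fourth generator -/
noncomputable def zP : PresentedGroup R := gP 3

theorem φ'_zP : φ' zP = zG := φ_gP 3 (by norm_num)

theorem zP_order : orderOf zP = 2 := by
  have : Fact (Nat.Prime 2) := ⟨Nat.prime_two⟩
  apply orderOf_eq_prime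
  · rw [pow_two]
    exact hgP 3
  · intro h
    have h1 : φ' zP = 1 := by rw [h, map_one]
    rw [φ'_zP] at h1
    exact zG_ne_one h1

theorem finP : Finite (PresentedGroup R) :=
  Nat.finite_of_card_ne_zero (by rw [main.2]; norm_num)

theorem LnP_le : L nP 3 ≤ Subgroup.centralizer ({zP} : Set (PresentedGroup R)) :=
  (Subgroup.closure_le _).mpr (by
    rintro g ⟨i, hi, rfl⟩
    rw [SetLike.mem_coe, Subgroup.mem_centralizer_iff]
    intro y hy
    rw [Set.mem_singleton_iff] at hy
    subst hy
    apply φ'_injective
    rw [map_mul, map_mul, φ'_zP, φ'_nP i hi]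
    exact Subgroup.mem_centralizer_iff.mp (Subgroup.mem_inf.mp (tN_mem i hi)).2 zG rfl)

theorem card_cen_le :
    Nat.card (Subgroup.centralizer ({zP} : Set (PresentedGroup R))) ≤ 21504 := by
  have hle : (Subgroup.centralizer ({zP} : Set (PresentedGroup R))).map φ' ≤ D0 := by
    rintro _ ⟨x, hx, rfl⟩
    refine Subgroup.mem_inf.mpr ⟨?_, ?_⟩
    · have h : φ x ∈ φ.range := ⟨x, rfl⟩
      rw [range_φ] at h
      exact h
    · rw [Subgroup.mem_centralizer_iff]
      intro y hy
      rw [Set.mem_singleton_iff] at hy
      subst hy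
      have h := Subgroup.mem_centralizer_iff.mp hx zP rfl
      rw [← φ'_zP, ← map_mul, ← map_mul, h]
  have e := Nat.card_congr ((Subgroup.centralizer
    ({zP} : Set (PresentedGroup R))).equivMapOfInjective φ' φ'_injective).toEquiv
  rw [e]
  exact le_trans (Subgroup.card_le_of_le hle) card_D0_le

/-- The centraliser of the fourth generator is generated by the three involutions. -/
theorem cen_eq : L nP 3 = Subgroup.centralizer ({zP} : Set (PresentedGroup R)) := by
  have := finP
  apply Subgroup.eq_of_le_of_card_ge LnP_le
  rw [Nat.card_congr eL.toEquiv, card_N]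
  exact card_cen_le

/-- The centraliser of the fourth generator is isomorphic to the group generated by the three
involutions of 24 points. -/
theorem final :
    Nonempty (Subgroup.centralizer ({zP} : Set (PresentedGroup R)) ≃* L tM 3) := by
  obtain ⟨e⟩ := iso_NM
  exact ⟨((MulEquiv.subgroupCongr cen_eq).symm.trans eL).trans e⟩

end Cfsg.Agent.Lib.Helper19.HeCenP
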